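import Cfsg.Agent.H70.Dl.Tools
import Cfsg.Agent.H759.Dl.Asm
import Cfsg.Agent.S1719
import Cfsg.Agent.S5389
import Cfsg.Agent.NotCT.Orders
import Cfsg.Agent.SuzThree.Final

/-!
# The derived length of a Sylow 2-subgroup of `Suz` (helper70)

`T = R (T₀ × ⟨τ⟩)`, `R = 2^(2+8)`, `T₀` a Sylow 2-subgroup of `L`, `|L| = 60`: `[T, T] ≤ R`, `[R, R] ≤ V`, `|V| = 4`.
-/

set_option autoImplicit false

open Cfsg

namespace Cfsg.Agent.H70.Dl.SuzDl

open Cfsg.Agent.H246.Dl Cfsg.Agent.H70.Dl Subgroup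
open Cfsg.Agent.LargeExtra Cfsg.Agent.LargeExtra.FourGroup

section prod

variable {G : Type*} [Group G]

/-- The product of `R` and a subgroup normalizing it. -/
def prodSub (R B : Subgroup G) (h : ∀ b ∈ B, ∀ r ∈ R, b * r * b⁻¹ ∈ R) : Subgroup G where
  carrier := {x | ∃ r ∈ R, ∃ b ∈ B, x = r * b}
  one_mem' := ⟨1, one_mem _, 1, one_mem _, by simp⟩
  mul_mem' := by
    rintro _ _ ⟨r, hr, b, hb, rfl⟩ ⟨r', hr', b', hb', rfl⟩
    exact ⟨r * (b * r' * b⁻¹), mul_mem hr (h b hb r' hr'), b * b', mul_mem hb hb', by group⟩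
  inv_mem' := by
    rintro _ ⟨r, hr, b, hb, rfl⟩
    refine ⟨b⁻¹ * r⁻¹ * b⁻¹⁻¹, h _ (inv_mem hb) _ (inv_mem hr), b⁻¹, inv_mem hb, by group⟩

theorem mem_prodSub {R B : Subgroup G} {h : ∀ b ∈ B, ∀ r ∈ R, b * r * b⁻¹ ∈ R} {x : G} :
    x ∈ prodSub R B h ↔ ∃ r ∈ R, ∃ b ∈ B, x = r * b := Iff.rfl

theorem card_prodSub {R B : Subgroup G} {h : ∀ b ∈ B, ∀ r ∈ R, b * r * b⁻¹ ∈ R} (h1 : ∀ x ∈ B, x ∈ R → x = 1) :
    Nat.card (prodSub R B h) = Nat.card R * Nat.card B :=
  card_mul_of_compl (fun r hr => ⟨r, hr, 1, one_mem _, by simp⟩) (fun b hb => ⟨1, one_mem _, b, hb, by simp⟩) h1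
    (fun _ hc => hc)

/-- If `B` is abelian then `[R B, R B] ≤ R`. -/
theorem commutator_prodSub {R B : Subgroup G} {h : ∀ b ∈ B, ∀ r ∈ R, b * r * b⁻¹ ∈ R}
    (hB : ∀ a ∈ B, ∀ b ∈ B, a * b = b * a) : ⁅prodSub R B h, prodSub R B h⁆ ≤ R := by
  rw [commutator_le]
  rintro _ ⟨r, hr, b, hb, rfl⟩ _ ⟨r', hr', b', hb', rfl⟩
  rw [commutatorElement_def]
  have e : r * b * (r' * b') * (r * b)⁻¹ * (r' * b')⁻¹ =
      r * (b * r' * b⁻¹) * (b * b' * b⁻¹ * r⁻¹ * (b * b' * b⁻¹)⁻¹) * (b * b' * b⁻¹ * b'⁻¹) * r'⁻¹ := by group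
  rw [e]
  have e2 : b * b' * b⁻¹ = b' := by rw [hB b hb b' hb', mul_inv_cancel_right]
  rw [e2, mul_inv_cancel, mul_one]
  exact mul_mem (mul_mem (mul_mem hr (h b hb r' hr')) (h b' hb' _ (inv_mem hr))) (inv_mem hr')

end prod

section

variable {G : Type*} [Group G] {Q P : Subgroup G} {z y : G}

/-- **The derived length in the Suzuki type.** -/
theorem dlLe_of_hyp [Finite G] (H : SuzHyp Q z) (h : Ctx Q P z y) (hG : (Nat.card G).factorization 2 = 13) :
    DlLe 2 3 G := by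
  have h2 : Fact (Nat.Prime 2) := ⟨Nat.prime_two⟩
  obtain ⟨f, τ, F, hτQ, hτ2, -, hτy, hτL, -, hLR, -, -, -, hV, cR, cL, -⟩ := H.four h
  -- a Sylow 2-subgroup of `L`
  obtain ⟨T1⟩ : Nonempty (Sylow 2 (h.L f)) := inferInstance
  have cT1 : Nat.card T1 = 4 := by
    rw [T1.card_eq_multiplicity, cL, show (60 : ℕ) = 2 ^ 2 * 15 by norm_num,
      Nat.factorization_mul (by norm_num) (by norm_num), Nat.factorization_pow, Finsupp.add_apply,
      Nat.factorization_eq_zero_of_not_dvd (n := 15) (p := 2) (by norm_num)]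
    simp [Nat.Prime.factorization_self Nat.prime_two]
  set T0 : Subgroup G := (T1 : Subgroup (h.L f)).map (h.L f).subtype with hT0
  have cT0 : Nat.card T0 = 4 := by
    rw [← cT1]
    exact (Nat.card_congr ((T1 : Subgroup (h.L f)).equivMapOfInjective _ (h.L f).subtype_injective).toEquiv).symm
  have hT0L : T0 ≤ h.L f := by
    rintro _ ⟨x, -, rfl⟩
    exact x.2
  have hT0c : ∀ a ∈ T0, ∀ b ∈ T0, a * b = b * a := by
    have hcomm : ∀ a b : T0, a * b = b * a :=
      (IsPGroup.commGroupOfCardEqPrimeSq (p := 2) (by rw [cT0]; norm_num)).mul_comm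
    intro a ha b hb
    exact congrArg Subtype.val (hcomm ⟨a, ha⟩ ⟨b, hb⟩)
  have hLCV : h.L f ≤ CV z y := fun x hx => (h.mem_L.mp hx).1
  have hτCV : τ ∉ CV z y := by
    intro hc
    have h1 := (mem_CV.mp hc).2
    rw [h1, mul_inv_cancel_right] at hτy
    exact h.z1 (by
      have h3 : 1 * y = z * y := by rw [one_mul]; exact hτy
      exact (mul_right_cancel h3).symm)
  have hz : ∀ s ∈ zpowers τ, s = 1 ∨ s = τ := by
    intro s hs
    obtain ⟨k, rfl⟩ := mem_zpowers_iff.1 hs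
    rcases Int.even_or_odd' k with ⟨m, rfl | rfl⟩
    · left
      rw [zpow_mul, show τ ^ (2 : ℤ) = 1 by rw [zpow_ofNat, pow_two, hτ2], one_zpow]
    · right
      rw [zpow_add, zpow_mul, show τ ^ (2 : ℤ) = 1 by rw [zpow_ofNat, pow_two, hτ2], one_zpow, one_mul, zpow_one]
  -- the abelian group `B = T₀ × ⟨τ⟩`
  have hsT : ∀ s ∈ zpowers τ, ∀ t ∈ T0, s * t = t * s := by
    intro s hs t ht
    rcases hz s hs with rfl | rfl
    · simp
    · exact hτL t (hT0L ht)
  set B : Subgroup G := prodSub T0 (zpowers τ) (fun s hs t ht => by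
    rw [hsT s hs t ht, mul_inv_cancel_right]
    exact ht) with hB
  have cτ : Nat.card (zpowers τ) = 2 := by
    rw [Nat.card_zpowers, orderOf_eq_prime_iff]
    exact ⟨by rw [pow_two, hτ2], fun h1 => hτCV (by rw [h1]; exact one_mem _)⟩
  have cB : Nat.card B = 8 := by
    rw [hB, card_prodSub, cT0, cτ]
    intro x hx hxT
    rcases hz x hx with rfl | rfl
    · rfl
    · exact absurd (hLCV (hT0L hxT)) hτCV
  have hBc : ∀ a ∈ B, ∀ b ∈ B, a * b = b * a := by
    rintro _ ⟨t, ht, s, hs, rfl⟩ _ ⟨t', ht', s', hs', rfl⟩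
    have e1 : s * s' = s' * s := by
      rcases hz s hs with rfl | rfl
      · simp
      · rcases hz s' hs' with rfl | rfl
        · simp
        · rfl
    calc t * s * (t' * s') = t * (s * t') * s' := by group
      _ = (t * t') * (s * s') := by rw [hsT s hs t' ht']; group
      _ = (t' * t) * (s' * s) := by rw [hT0c t ht t' ht', e1]
      _ = t' * (t * s') * s := by group
      _ = t' * s' * (t * s) := by rw [← hsT s' hs' t ht]; group
  have hBR : ∀ b ∈ B, ∀ r ∈ h.R, b * r * b⁻¹ ∈ h.R := by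
    rintro _ ⟨t, ht, s, hs, rfl⟩ r hr
    have e1 : s * r * s⁻¹ ∈ h.R := by
      rcases hz s hs with rfl | rfl
      · simpa using hr
      · exact h.conj_R_Q hτQ hr
    have e2 := h.conj_R_CV (hLCV (hT0L ht)) e1
    have e3 : t * s * r * (t * s)⁻¹ = t * (s * r * s⁻¹) * t⁻¹ := by group
    rw [e3]
    exact e2
  have hRB : ∀ x ∈ B, x ∈ h.R → x = 1 := by
    rintro _ ⟨t, ht, s, hs, rfl⟩ hx
    have h3 : s ∈ CV z y := by
      have := mul_mem (inv_mem (hLCV (hT0L ht))) (h.R_le_CV hx)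
      rwa [inv_mul_cancel_left] at this
    rcases hz s hs with rfl | rfl
    · rw [mul_one] at hx ⊢
      exact hLR t (hT0L ht) hx
    · exact absurd h3 hτCV
  have cT : Nat.card (prodSub h.R B hBR) = 2 ^ 13 := by
    rw [card_prodSub hRB, cR, cB]
    norm_num
  let T : Sylow 2 G := Sylow.ofCard (prodSub h.R B hBR) (by rw [cT, hG])
  refine DlLe.of_sylow T ?_
  show derivedSeries ↥(prodSub h.R B hBR) 3 = ⊥
  refine chain_three (R := h.R) (V := h.V) (commutator_prodSub hBc) ?_ ?_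
  · rw [commutator_le]
    intro a ha b hb
    rw [commutatorElement_def]
    exact h.comm_R hV ha hb
  · exact commutator_eq_bot_of_comm fun a ha b hb => h.V_comm_CV hb (h.V_le_CV ha)

end

universe u

/-- **`Suz`**: the Sylow 2-subgroups have derived length at most 3. -/
theorem dlLe_suz {S : Type u} [Group S] (hS : Spor.IsoSuz S) : DlLe 2 3 S := by
  have h2 : Fact (Nat.Prime 2) := ⟨Nat.prime_two⟩
  obtain ⟨A, hA, hn, X, iX, fX, hX, hs, hnc, z, hz, Q, hQn, hF, hQ, hc, ⟨e⟩, g, ⟨hq, hgQ⟩, hne⟩ :=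
    Cfsg.Agent.S5389.result
  have hXS : Spor.IsoSuz X := Cfsg.Agent.S1719.result z hz Q hF hQ hc e ⟨g, ⟨hq, hgQ⟩, hne⟩
  have H := SuzHyp.of_statement z hz Q hF hQ hc e
  have hyQ : g * z * g⁻¹ ∈ Q.map (centralizer ({z} : Set X)).subtype := ⟨_, hgQ, rfl⟩
  have hctx := ctx_of_data H.data rfl hne hyQ H.z_ne rfl
  have hcX := NotCT.Orders.suz hXS
  have h3 : DlLe 2 3 X := by
    refine dlLe_of_hyp H hctx ?_
    rw [hcX, show (448345497600 : ℕ) = 2 ^ 13 * 54729675 by norm_num,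
      Nat.factorization_mul (by norm_num) (by norm_num), Nat.factorization_pow, Finsupp.add_apply,
      Nat.factorization_eq_zero_of_not_dvd (n := 54729675) (p := 2) (by norm_num)]
    simp [Nat.Prime.factorization_self Nat.prime_two]
  have hfS : Finite S := Nat.finite_of_card_ne_zero (by rw [NotCT.Orders.suz hS]; norm_num)
  obtain ⟨e1⟩ := hS
  obtain ⟨e2⟩ := hXS
  exact DlLe.of_equiv (e1.trans e2.symm) h3

/-- **`Suz`**: the Sylow 3-subgroups have derived length at most 2 (`3 ^ 5 : M₁₁`). -/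
theorem dlLe_suz_three {S : Type u} [Group S] (hS : Spor.IsoSuz S) : DlLe 3 2 S := by
  have h3 : Fact (Nat.Prime 3) := ⟨Nat.prime_three⟩
  have hcS := NotCT.Orders.suz hS
  have hfS : Finite S := Nat.finite_of_card_ne_zero (by rw [hcS]; norm_num)
  obtain ⟨e⟩ := hS
  obtain ⟨hE, hc, -, hn, hq⟩ := Cfsg.Agent.SuzThree.Final.transport e.symm
  refine dlLe_two_of_abelian (k := 5) (A := Cfsg.Agent.SuzThree.Elementary.A0.map e.symm.toMonoidHom) ?_ hc ?_ ?_
  · intro a ha b hb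
    exact congrArg Subtype.val (hE.1.is_comm.comm ⟨a, ha⟩ ⟨b, hb⟩)
  · have h1 := Subgroup.card_eq_card_quotient_mul_card_subgroup
      ((Cfsg.Agent.SuzThree.Elementary.A0.map e.symm.toMonoidHom).subgroupOf
        (normalizer ((Cfsg.Agent.SuzThree.Elementary.A0.map e.symm.toMonoidHom : Subgroup S) : Set S)))
    rw [NotCT.Orders.m11 hq, Nat.card_congr (subgroupOfEquivOfLe le_normalizer).toEquiv, hc] at h1
    rw [h1]
    exact ⟨880, by norm_num⟩
  · rw [hcS, show (448345497600 : ℕ) = 3 ^ 7 * 205004800 by norm_num,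
      Nat.factorization_mul (by norm_num) (by norm_num), Nat.factorization_pow, Finsupp.add_apply,
      Nat.factorization_eq_zero_of_not_dvd (n := 205004800) (p := 3) (by norm_num)]
    simp [Nat.Prime.factorization_self Nat.prime_three]

end Cfsg.Agent.H70.Dl.SuzDl
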